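import Mathlib
import Cfsg.Agent.Lib.Lang.Poly

/-!
# Semisimple elements of finite Chevalley groups and the Weyl group
-/

set_option autoImplicit false
set_option linter.unusedSectionVars false

universe u

namespace H38

open H37 Cfsg Cfsg.Lie

section Abstract

variable {ι l : Type} [Fintype l] [DecidableEq l] {R : RS ι l}
variable {K : Type*} [Field K] {G : Type*} [Group G] {E : Elts R K G}

/-- Families of diagonal elements which are conjugate are conjugate under the monomial group. -/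
theorem weyl_of_conj [Finite ι] (hF : E.Faith) (h3 : E.R3) {α : Type*} {t t' : α → G}
    (ht : ∀ i, t i ∈ E.H) (ht' : ∀ i, t' i ∈ E.H) {g : G} (hg : g ∈ E.BS Set.univ)
    (e : ∀ i, t i * g = g * t' i) : ∃ n w, E.Rep n w ∧ ∀ i, n * t' i * n⁻¹ = t i := by
  obtain ⟨m, b, h⟩ := (isSub_univ (R := R)).exists_base
  obtain ⟨c, -, w, -, h2⟩ := h.exists_cent hF h3 ht ht' hg e
  obtain ⟨w', hw', -⟩ := h.rep_nw' E w
  exact ⟨_, w', hw', h2⟩

lemma chi_eq_prod {Γ : Type*} [CommGroup Γ] (r : ι) (c : l → Γ) :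
    chi R r c = ∏ j, chi R (R.sim j) c ^ R.rt r j := by
  simp only [chi_apply, ← Finset.prod_zpow, ← zpow_mul]
  rw [Finset.prod_comm]
  refine Finset.prod_congr rfl fun i _ => ?_
  rw [P.prod_zpow_eq]
  congr 1
  simp only [R.wt_sim]
  simp only [RS.wt, RS.wtv, mul_comm]

end Abstract

variable {D : ChevalleyDatum} (hD : D ∈ Tabs) (R : RootSys D) {F : Type u} [Field F] [Fintype F]

theorem exists_diag {x : D.group F} (hx : (Fintype.card F).Coprime (orderOf x)) :
    ∃ g c, g⁻¹ * fm hD (algebraMap F (AlgebraicClosure F)) x * g =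
      Elts.tor (EG_R3 hD R (AlgebraicClosure F)) c := by
  obtain ⟨p, a, _, _, _, ha, hq, hk, -⟩ := exists_setup F
  obtain ⟨g, -, h, -⟩ := exists_conj_H (hD := hD) (R := R) hk isSub_univ
    (s := fm hD (algebraMap F (AlgebraicClosure F)) x) (u := 1)
    (by rw [EG_BS_univ]; trivial) (one_mem _) (Commute.one_right _) (by
      rw [orderOf_injective _ (fm_injective hD _)]
      exact Nat.Coprime.coprime_dvd_left (hq ▸ dvd_pow_self p ha.ne') hx) (by simp)
  obtain ⟨c, hc⟩ := exists_tor (EG_R3 hD R _) h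
  exact ⟨g, c, hc.symm⟩

theorem exists_frob_weyl {α : Type*} {x : α → D.group F} {g : D.group (AlgebraicClosure F)}
    {c : α → Fin D.rank → (AlgebraicClosure F)ˣ}
    (e : ∀ i, g⁻¹ * fm hD (algebraMap F (AlgebraicClosure F)) (x i) * g =
      Elts.tor (EG_R3 hD R (AlgebraicClosure F)) (c i)) :
    ∃ w ∈ R.W, ∀ i r, chi R.toRS (w r) (c i) = chi R.toRS r (c i) ^ Fintype.card F := by
  obtain ⟨p, a, _, _, _, ha, hq, hk, hτ⟩ := exists_setup F
  let σ := fm hD (iterateFrobenius (AlgebraicClosure F) p a)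
  have h1 : ∀ y, σ (fm hD (algebraMap F (AlgebraicClosure F)) y) = fm hD (algebraMap F _) y :=
    fun y => by
      rw [fm_fm]; congr 2; ext t; exact (hτ _).mpr ⟨t, rfl⟩
  have h2 : ∀ i, (σ g)⁻¹ * fm hD (algebraMap F (AlgebraicClosure F)) (x i) * σ g =
      Elts.tor (EG_R3 hD R (AlgebraicClosure F)) (c i ^ Fintype.card F) := fun i => by
    rw [hq, ← map_frob, ← (fm_fhom hD R _).tor (EG_R3 hD R _) (EG_R3 hD R _), ← e, map_mul, map_mul,
      map_inv, h1]
  obtain ⟨n, w, hn, h3⟩ := weyl_of_conj (EG_faith hD R _) (EG_R3 hD R _)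
    (fun i => tor_mem (EG_R3 hD R (AlgebraicClosure F)) (c i))
    (fun i => tor_mem (EG_R3 hD R _) (c i ^ Fintype.card F)) (g := g⁻¹ * σ g)
    (by rw [EG_BS_univ]; trivial) fun i => by rw [← e, ← h2]; group
  exact ⟨w, hn.mem_W, fun i r => by rw [chi_rep (EG_faith hD R _) _ hn (h3 i), map_pow]⟩

/-- A twisted diagonal element is conjugate to an element of the finite group. -/
theorem exists_twisted (hi : Function.Injective (Elts.tor (ES_R3 hD R (AlgebraicClosure F))))
    (L : List (Fin D.nroots)) : ∃ g : D.group (AlgebraicClosure F),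
    ∀ c : Fin D.rank → (AlgebraicClosure F)ˣ, c ^ Fintype.card F = wact R.toRS L c →
      ∃ b, g⁻¹ * fm hD (algebraMap F (AlgebraicClosure F)) b * g =
        Elts.tor (EG_R3 hD R (AlgebraicClosure F)) c := by
  obtain ⟨p, a, _, _, _, ha, hq, hk, hτ⟩ := exists_setup F
  obtain ⟨g, hg⟩ := exists_twist hD R (p := p) ha _ (nL (EG hD R (AlgebraicClosure F)) L)
  refine ⟨g, fun c hc => ?_⟩
  obtain ⟨b, hb⟩ := twisted_mem hτ hi hg (c := c) (by rw [map_frob, ← hq, hc])
  exact ⟨b, by rw [hb]; group⟩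

/-- Diagonalisation of `x` compatible with a given diagonalisation of a power of `x`. -/
theorem exists_diag_pow {x : D.group F} (hx : (Fintype.card F).Coprime (orderOf x)) {k : ℕ}
    {g0 : D.group (AlgebraicClosure F)} {c0 : Fin D.rank → (AlgebraicClosure F)ˣ}
    (h : g0⁻¹ * fm hD (algebraMap F (AlgebraicClosure F)) (x ^ k) * g0 =
      Elts.tor (EG_R3 hD R (AlgebraicClosure F)) c0) :
    ∃ g c, g⁻¹ * fm hD (algebraMap F (AlgebraicClosure F)) x * g =
      Elts.tor (EG_R3 hD R (AlgebraicClosure F)) c ∧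
        ∀ r, chi R.toRS r c ^ k = chi R.toRS r c0 := by
  obtain ⟨g, c, hc⟩ := exists_diag hD R hx
  obtain ⟨n, w, hn, h3⟩ := weyl_of_conj (EG_faith hD R _) (EG_R3 hD R _) (α := Unit)
    (fun _ => tor_mem (EG_R3 hD R (AlgebraicClosure F)) c0)
    (fun _ => tor_mem (EG_R3 hD R _) (c ^ k)) (g := g0⁻¹ * g)
    (by rw [EG_BS_univ]; trivial) fun i => by
      rw [← h, map_pow, map_pow, ← hc, show g⁻¹ * _ * g = g⁻¹ * _ * g⁻¹⁻¹ by rw [inv_inv], conj_pow]
      group
  obtain ⟨c', hc'⟩ := exists_tor (EG_R3 hD R _) ((EG hD R _).conj_mem_H hn.mem_N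
    (tor_mem (EG_R3 hD R (AlgebraicClosure F)) c))
  refine ⟨g * n⁻¹, c', by rw [hc', ← hc]; group, fun r => ?_⟩
  rw [← map_pow]
  refine chi_eq_of_tor (EG_faith hD R _) (EG_R3 hD R _) ?_ r
  rw [← h3 (), map_pow, hc', map_pow, conj_pow]

end H38
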