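import Cfsg.Agent.Base
import Cfsg.Agent.Lib.Chev.WeakCl
import Cfsg.Agent.Lib.Chev.InvolTab

/-! Table checks for the hypotheses of `H9.weakly_closed`. -/

set_option autoImplicit false

namespace H9

open H38 Cfsg Cfsg.Lie

theorem exists_v {σ K : Type*} [Field K] {Z : AddSubgroup (σ → K)} {C : σ → K} {i j : σ → ℕ}
    (hZ : ∀ t u, (fun c => C c * (-t) ^ i c * u ^ j c) ∈ Z) {a : K} (h0 : a ≠ 0) (h1 : a ≠ 1)
    {m : ℕ} (hm : m = 1 ∨ m = 2 ∨ (m = 3 ∧ a ≠ -1)) (s : K) :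
    ∃ v ∈ Z, ∀ c, j c = 1 → (1 ≤ i c → i c < m → v c = 0) ∧ (i c = m → v c = C c * s) := by
  have hw : ∀ t u, ∃ v ∈ Z, ∀ c, j c = 1 → v c = C c * ((t ^ i c - t) * u) := fun t u =>
    ⟨_, Z.sub_mem (hZ (-t) u) (hZ (-1) (t * u)), fun c hc => by simp [hc]; ring⟩
  have h2 : ∀ t : K, t ≠ 0 → t ≠ 1 → t ^ 2 - t ≠ 0 := fun t h h' e =>
    mul_ne_zero h (sub_ne_zero.2 h') (by linear_combination e)
  rcases hm with rfl | rfl | ⟨rfl, h3⟩
  · exact ⟨_, hZ (-1) s, fun c hc => ⟨by omega, fun h => by simp [hc]⟩⟩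
  · obtain ⟨v, hv, e⟩ := hw a (s / (a ^ 2 - a))
    refine ⟨v, hv, fun c hc => ⟨fun h h' => ?_, fun h => ?_⟩⟩
    · rw [e c hc, show i c = 1 by omega]; simp
    · rw [e c hc, h, mul_div_cancel₀ _ (h2 a h0 h1)]
  · have h4 : a - a⁻¹ ≠ 0 := fun e => mul_ne_zero (sub_ne_zero.2 h1) (sub_ne_zero.2 h3) (by
      have := mul_inv_cancel₀ h0
      linear_combination a * e + this)
    have h5 := h2 a h0 h1
    have h6 := h2 a⁻¹ (inv_ne_zero h0) (inv_ne_one.2 h1)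
    obtain ⟨v, hv, e⟩ := hw a (s / (a - a⁻¹) / (a ^ 2 - a))
    obtain ⟨v', hv', e'⟩ := hw a⁻¹ (s / (a - a⁻¹) / (a⁻¹ ^ 2 - a⁻¹))
    refine ⟨v - v', Z.sub_mem hv hv', fun c hc => ⟨fun h h' => ?_, fun h => ?_⟩⟩
    · rw [Pi.sub_apply, e c hc, e' c hc]
      rcases (by omega : i c = 1 ∨ i c = 2) with h | h <;> rw [h]
      · simp
      · rw [mul_div_cancel₀ _ h5, mul_div_cancel₀ _ h6, sub_self]
    · rw [Pi.sub_apply, e c hc, e' c hc, h, ← mul_sub]
      congr 1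
      generalize a⁻¹ = b at h4 h6 ⊢
      rw [show a ^ 3 - a = (a + 1) * (a ^ 2 - a) by ring, show b ^ 3 - b = (b + 1) * (b ^ 2 - b) by ring,
        mul_assoc, mul_assoc, mul_div_cancel₀ _ h5, mul_div_cancel₀ _ h6, ← sub_mul,
        add_sub_add_right_eq_sub, mul_div_cancel₀ _ h4]

variable (D : ChevalleyDatum) (t : Tab)

/-- height -/
def htT (r : ℕ) : ℤ := sumLt D.rank fun j => t.rt D r j

/-- pairwise test -/
def pwB {α : Type} (f : α → α → Bool) : List α → Bool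
  | [] => true
  | a :: L => L.all (f a) && pwB f L

/-- the root subgroup of `r` is obtained from commutators of the root subgroups of `a`, `b` -/
def genB (e : Bool) (r : ℕ) (p : ℕ × ℕ) : Bool :=
  decide (htT D t r < 2) || (Nat.blt p.1 D.nroots && Nat.blt p.2 D.nroots && decide (0 < htT D t p.1) &&
    decide (0 < htT D t p.2) && p.2 != p.1 &&
    pwB (fun c c' => decide (htT D t r < htT D t c.1 + htT D t c'.1)) (D.commTerms p.1 p.2) &&
    match (D.commTerms p.1 p.2).dropWhile fun c => c.1 != r with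
    | [] => false
    | c :: rest => c.1 == r && (c.2.1 == 1 || c.2.1 == -1) && c.2.2.2 == 1 &&
      (c.2.2.1 == 1 || c.2.2.1 == 2 || (c.2.2.1 == 3 && e)) &&
      ((D.commTerms p.1 p.2).takeWhile fun c => c.1 != r).all
        (fun c' => c'.2.2.2 == 1 && Nat.blt c'.2.2.1 c.2.2.1) &&
      rest.all fun c' => decide (htT D t r < htT D t c'.1))

/-- the coroot of `γ` separates two simple roots -/
def sepB (e : Bool) (i j γ : ℕ) : Bool :=
  j == i || (Nat.blt γ D.nroots && fm D t γ (D.simple j) == 0 &&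
    (fm D t γ (D.simple i) == t.len γ || (fm D t γ (D.simple i) == 2 * t.len γ && e)))

/-- all checks -/
def wcB (e : Bool) (P : List (ℕ × ℕ)) (S : List (List ℕ)) : Bool :=
  P.length == D.nroots && allIdx (genB D t e) P 0 &&
    allLt D.rank fun i => allLt D.rank fun j => sepB D t e i j ((S.getD i []).getD j 0)

variable {D t}

theorem pwB_spec {α : Type} {f : α → α → Bool} {L : List α} (h : pwB f L = true) :
    L.Pairwise fun a b => f a b = true := by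
  induction L with
  | nil => exact List.Pairwise.nil
  | cons a L ih =>
    rw [pwB, Bool.and_eq_true, List.all_eq_true] at h
    exact List.pairwise_cons.2 ⟨h.1, ih h.2⟩

namespace Compat

variable {R : RootSys D} (C : Compat R t) {F : Type*} [Field F] {E : Elts R.toRS F (GL D.Idx F)}
  (hE : IsMat R E) {e : Bool} {a : F} (h0 : a ≠ 0) (h1 : a ≠ 1) (h2 : e = true → a ≠ -1)

include C in
theorem ht (r : Fin D.nroots) : R.ht r = htT D t r := by
  simp only [R.ht_eq, htT, sumLt_eq, C.rt]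

include C h0 h1 h2 in
theorem sepB_spec {i j : Fin D.rank} (hij : j ≠ i) {γ : ℕ} (h : sepB D t e i j γ = true) :
    ∃ γ, ∃ a : F, a ≠ 0 ∧ R.pair γ (R.sim j) = 0 ∧ a ^ R.pair γ (R.sim i) ≠ 1 := by
  simp only [sepB, Bool.or_eq_true, Bool.and_eq_true, beq_iff_eq, Nat.blt_eq] at h
  obtain ⟨⟨h3, h4⟩, h5⟩ := h.resolve_left fun e => hij (Fin.ext e)
  lift γ to Fin D.nroots using h3
  rw [← R.sim_eq, C.fm_eq] at h4 h5
  rw [← C.len] at h5
  refine ⟨γ, a, h0, (mul_eq_zero.1 h4).resolve_left (R.len_ne _), ?_⟩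
  rcases h5 with h5 | ⟨h5, h6⟩
  · rwa [(mul_eq_left₀ (R.len_ne γ)).1 h5, zpow_one]
  · rw [mul_left_cancel₀ (R.len_ne γ) (h5.trans (mul_comm _ _)), zpow_ofNat]
    exact fun e => mul_ne_zero (sub_ne_zero.2 h1) (sub_ne_zero.2 (h2 h6)) (by linear_combination e)

include C hE h0 h1 h2 in
theorem genB_spec {r : Fin D.nroots} (hr : 2 ≤ R.ht r) {p : ℕ × ℕ} (h : genB D t e r p = true) :
    ∃ a b, R.Pos a ∧ R.Pos b ∧ r ∈ R.Cone a b ∧ ∀ M : Subgroup (GL D.Idx F),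
      (∀ t u, E.x a t * E.x b u * (E.x a t)⁻¹ * (E.x b u)⁻¹ ∈ M) →
      (∀ k ∈ R.Cone a b, R.ht r < R.ht k → ∀ t, E.x k t ∈ M) → ∀ t, E.x r t ∈ M := by
  obtain ⟨α, β⟩ := p
  simp only [genB, Bool.or_eq_true, Bool.and_eq_true, decide_eq_true_eq, Nat.blt_eq, bne_iff_ne] at h
  obtain ⟨⟨⟨⟨⟨⟨a1, a2⟩, a3⟩, a4⟩, a5⟩, a6⟩, a7⟩ := h.resolve_left (by rw [← C.ht]; omega)
  lift α to Fin D.nroots using a1
  lift β to Fin D.nroots using a2
  rw [← C.ht, R.ht_pos_iff] at a3 a4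
  have hT := List.takeWhile_append_dropWhile (p := fun c => c.1 != (r : ℕ)) (l := D.commTerms α β)
  have hok : ∀ c ∈ D.commTerms α β, ∃ k ∈ R.Cone α β, (k : ℕ) = c.1 ∧ 1 ≤ c.2.2.1 := fun c hc => by
    obtain ⟨k, b1, b2, b3, b4⟩ := R.commTerms_ok α β hc
    exact ⟨k, ⟨_, _, by exact_mod_cast b2, by exact_mod_cast b3, b4⟩, b1, b2⟩
  split at a7
  · cases a7
  rename_i c rest hc
  simp only [Bool.or_eq_true, Bool.and_eq_true, decide_eq_true_eq, Nat.blt_eq, beq_iff_eq,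
    List.all_eq_true] at a7
  obtain ⟨⟨⟨⟨⟨b1, b2⟩, b3⟩, b4⟩, b5⟩, b6⟩ := a7
  rw [hc] at hT
  generalize (D.commTerms α β).takeWhile (fun c => c.1 != (r : ℕ)) = pre at hT b5
  refine ⟨α, β, a3, a4, ?_, fun M hM1 hM2 s => ?_⟩
  · obtain ⟨k, hk, e1, -⟩ := hok c (by rw [← hT]; simp)
    rwa [show k = r from Fin.ext (e1.trans b1)] at hk
  let y : ℕ × ℤ × ℕ × ℕ → F → GL D.Idx F := fun c => E.x (C.φ c.1)
  have hy : ∀ j a b, y j a * y j b = y j (a + b) := fun j => E.x_add _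
  have hφ : ∀ c ∈ D.commTerms α β, C.φ c.1 ∈ R.Cone α β ∧ (C.φ c.1 : ℕ) = c.1 := fun c hc => by
    obtain ⟨k, hk, e1, -⟩ := hok c hc
    rw [← e1, C.φ_fin]
    exact ⟨hk, rfl⟩
  have hp : ∀ k ∈ R.Cone α β, R.Pos k := fun k => R.pos_of_cone a3 a4
  let N := E.XS {k | k ∈ R.Cone α β ∧ R.ht r < R.ht k}
  have hN : N ≤ M := E.XS_le.2 fun k hk => hM2 k hk.1 hk.2
  have hM : ∀ g ∈ E.XS (R.Cone α β), ∀ a ∈ N, g * a * g⁻¹ ∈ N := fun g hg a ha =>
    E.XS_conj_mem (S := {k | k ∈ R.Cone α β ∧ R.ht r < R.ht k}) (fun k hk j hj => ⟨ne_neg_of_pos (hp k hk) (hp j hj.1), fun i hi =>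
      ⟨R.closed_cone α β k hk j hj.1 hi, hj.2.trans (R.ht_lt_of_cone (hp k hk) (hp j hj.1) hi).2⟩⟩) hg ha
  have hU : ∀ j ∈ D.commTerms α β, ∀ a, y j a ∈ E.XS (R.Cone α β) := fun j hj =>
    E.x_mem_XS (hφ j hj).1
  have hc : (D.commTerms α β).Pairwise fun j k => ∀ a b,
      y j a * y k b * (y j a)⁻¹ * (y k b)⁻¹ ∈ N := by
    refine List.Pairwise.imp_of_mem (fun {j k} hj hk h a b => ?_) (pwB_spec a6)
    have p1 := hp _ (hφ j hj).1
    have p2 := hp _ (hφ k hk).1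
    refine E.mem_XS_mono (E.comm_of_ne_neg (ne_neg_of_pos p1 p2) a b) fun i hi =>
      ⟨R.closed_cone α β _ (hφ j hj).1 _ (hφ k hk).1 hi, ?_⟩
    rw [decide_eq_true_eq, ← (hφ j hj).2, ← (hφ k hk).2, ← C.ht, ← C.ht, ← C.ht] at h
    obtain ⟨m, n, hm, hn, -, e1⟩ := R.cone_coord hi
    rw [← R.ht_pos_iff] at p1 p2
    nlinarith
  have hZ : ∀ u w, (fun c : ℕ × ℤ × ℕ × ℕ => (c.2.1 : F) * (-u) ^ c.2.2.1 * w ^ c.2.2.2) ∈
      Zsub hy hM hU hc hN := fun u w => by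
    change PP y _ _ ∈ M
    have h3 := hE.facts.comm α α.2 β β.2 a5
      (fun e => ne_neg_of_pos a3 a4 (Fin.ext (e.trans (R.neg_eq α).symm))) u w
    have h4 : E.x β w * E.x α u = E.x α u * E.x β w * PP y (D.commTerms α β)
        (fun c => c.2.1 * (-u) ^ c.2.2.1 * w ^ c.2.2.2) := by
      refine Units.ext ?_
      simp only [Units.val_mul, hE.coe_x _ _, h3]
      rw [PP, ← Units.coeHom_apply, map_list_prod, List.map_map, ChevalleyDatum.wordMat,
        ChevalleyDatum.commWord, List.map_map]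
      congr 2
      exact List.map_congr_left fun c hc => by
        simp only [Function.comp, y, Units.coeHom_apply, hE.coe_x _ _, (hφ c hc).2]
    have h5 := M.inv_mem (hM1 (-u) (-w))
    rw [E.x_neg, E.x_neg] at h5
    convert h5 using 1
    rw [← inv_mul_eq_of_eq_mul h4]
    group
  obtain ⟨v, hv, e1⟩ := exists_v (Z := Zsub hy hM hU hc hN) (C := fun c => (c.2.1 : F))
    (i := fun c => c.2.2.1) (j := fun c => c.2.2.2) hZ h0 h1 (m := c.2.2.1)
    (by rcases b4 with (h | h) | ⟨h, h'⟩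
        exacts [Or.inl h, Or.inr (Or.inl h), Or.inr (Or.inr ⟨h, h2 h'⟩)]) (c.2.1 * s)
  · have h3 : PP y (D.commTerms α β) v ∈ M := hv
    have h4 : PP y rest v ∈ M := hN (PP_mem fun j hj => by
      have := hφ j (by rw [← hT]; simp [hj])
      exact E.x_mem_XS (And.intro this.1 (by rw [C.ht, C.ht, this.2]; exact b6 j hj)) _)
    rw [← hT, PP_append, PP_cons, PP_eq_one hy fun j hj => (e1 j (b5 j hj).1).1 (by
      obtain ⟨k, -, -, h⟩ := hok j (by rw [← hT]; simp [hj])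
      exact h) (b5 j hj).2, one_mul, (e1 c b3).2 rfl, M.mul_mem_cancel_right h4] at h3
    have : (c.2.1 : F) * (c.2.1 * s) = s := by rcases b2 with h | h <;> simp [h]
    simpa only [this, y, b1, C.φ_fin] using h3

include C hE h0 h1 h2 in
theorem weakly_closed [Finite F] {P : List (ℕ × ℕ)} {S : List (List ℕ)} (h : wcB D t e P S = true)
    (X : Subgroup (GL D.Idx F)) (hXU : X ≤ D.posUnipotent F)
    (hwc : ∀ g ∈ D.group F, X.map (MulAut.conj g).toMonoidHom ≤ D.posUnipotent F →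
      X.map (MulAut.conj g).toMonoidHom = X) :
    ∃ J : Set ℕ, (∀ j ∈ J, j < D.rank) ∧ X = D.unipotentRadical F J := by
  simp only [wcB, Bool.and_eq_true, beq_iff_eq, allLt_iff] at h
  rw [hE.U_eq, hE.Gp_eq] at *
  obtain ⟨J, hJ⟩ := H9.weakly_closed hE.faith
    (fun i j hij => C.sepB_spec h0 h1 h2 hij (h.2 i i.2 j j.2))
    (fun r hr => C.genB_spec hE h0 h1 h2 hr (p := P[r]'(by have := r.2; omega)) (by
      have := allIdx_spec h.1.2 (k := r) (a := P[r]'(by have := r.2; omega)) (by simp)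
      rwa [zero_add] at this)) hXU fun g hg h a ha => by
    rw [← hwc g hg (by rintro _ ⟨b, hb, rfl⟩; exact h b hb)]
    exact ⟨a, ha, rfl⟩
  refine ⟨Fin.val '' J, by rintro _ ⟨j, -, rfl⟩; exact j.2, ?_⟩
  rw [hE.UJ_eq, hJ]
  congr 1
  exact (Set.preimage_image_eq J Fin.val_injective).symm

end Compat

end H9
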